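import Mathlib
import Cfsg.Agent.MinNormal.Factors
import Cfsg.Agent.Frob.Kernel

/-!
Burnside: minimal normal subgroups of doubly transitive groups.
-/

namespace CfsgLib.MinNormal

open MulAction
open scoped Pointwise

theorem commute_of_disjoint {H : Type*} [Group H] {A B : Subgroup H}
    (hA : B ≤ Subgroup.normalizer (A : Set H)) (hB : A ≤ Subgroup.normalizer (B : Set H))
    (hd : A ⊓ B = ⊥) {x y : H} (hx : x ∈ A) (hy : y ∈ B) : Commute x y := by
  have hmem : x * y * x⁻¹ * y⁻¹ ∈ A ⊓ B := by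
    refine ⟨?_, B.mul_mem ((Subgroup.mem_normalizer_iff.mp (hB hx) y).mp hy) (B.inv_mem hy)⟩
    rw [mul_assoc x y, mul_assoc x]
    exact A.mul_mem hx ((Subgroup.mem_normalizer_iff.mp (hA hy) x⁻¹).mp (A.inv_mem hx))
  rw [hd, Subgroup.mem_bot] at hmem
  exact commutatorElement_eq_one_iff_commute.mp hmem

/-- All non-identity elements of equal order forces a non-trivial centre. -/
theorem isPGroup_of_equal_orders {K : Type*} [Group K] [Finite K] [Nontrivial K]
    (h : ∀ x y : K, x ≠ 1 → y ≠ 1 → orderOf x = orderOf y) :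
    ∃ p : ℕ, p.Prime ∧ IsPGroup p K := by
  have hp : (Nat.card K).minFac.Prime := Nat.minFac_prime Finite.one_lt_card.ne'
  haveI := Fact.mk hp
  obtain ⟨x, hx⟩ := exists_prime_orderOf_dvd_card' _ (Nat.minFac_dvd (Nat.card K))
  have hx1 : x ≠ 1 := fun e => hp.ne_one (by rw [← hx, e, orderOf_one])
  refine ⟨_, hp, fun y => ?_⟩
  by_cases hy : y = 1
  · exact ⟨0, by simp [hy]⟩
  · exact ⟨1, by rw [pow_one, ← hx, h x y hx1 hy, pow_orderOf_eq_one]⟩

variable {G α : Type*} [Group G] [MulAction G α] [FaithfulSMul G α]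

theorem eq_of_fix_commute {N : Subgroup G} [IsPretransitive N α] {x y : G} {a : α}
    (hx : ∀ n ∈ N, Commute x n) (hy : ∀ n ∈ N, Commute y n) (h : x • a = y • a) : x = y := by
  refine FaithfulSMul.eq_of_smul_eq_smul (α := α) fun b => ?_
  obtain ⟨⟨n, hn⟩, rfl⟩ := exists_smul_eq N a b
  show x • n • a = y • n • a
  rw [← mul_smul, ← mul_smul, (hx n hn).eq, (hy n hn).eq, mul_smul, mul_smul, h]

theorem isPretransitive_normalised {N K : Subgroup G} [IsPreprimitive N α] (hK : K ≤ N)
    (hKN : N ≤ Subgroup.normalizer (K : Set G)) (hne : K ≠ ⊥) : IsPretransitive K α := by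
  haveI : (K.subgroupOf N).Normal :=
    ⟨fun k hk n => (Subgroup.mem_normalizer_iff.mp (hKN n.2) (k : G)).mp hk⟩
  have ht : IsPretransitive (K.subgroupOf N) α := by
    refine IsQuasiPreprimitive.isPretransitive_of_normal (G := N) ?_
    intro hfix
    refine hne ((Subgroup.eq_bot_iff_forall K).mpr fun k hk => ?_)
    refine FaithfulSMul.eq_of_smul_eq_smul (α := α) fun a => ?_
    rw [one_smul]
    exact (Set.eq_univ_iff_forall.mp hfix a) ⟨⟨k, hK hk⟩, hk⟩
  exact ⟨fun x y => by
    obtain ⟨k, hk⟩ := ht.exists_smul_eq x y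
    exact ⟨⟨((k : N) : G), k.2⟩, hk⟩⟩

variable [Finite α]

theorem not_semiregular [Finite G] (h2 : IsMultiplyPretransitive G α 2) (N : Subgroup G) [N.Normal]
    [IsPretransitive N α]
    (hmin : ∀ M : Subgroup G, M.Normal → M ≤ N → M = ⊥ ∨ M = N) (hN : N ≠ ⊥)
    (hnab : ¬ IsMulCommutative N) (a : α) : stabilizer N a ≠ ⊥ := by
  intro hreg
  haveI : Nontrivial N := (Subgroup.nontrivial_iff_ne_bot _).mpr hN
  have hG : ∀ {a b c d : α}, a ≠ b → c ≠ d → ∃ g : G, g • a = c ∧ g • b = d :=
    is_two_pretransitive_iff.mp h2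
  have hne : ∀ {n : N}, n ≠ 1 → n • a ≠ a := fun {n} hn h => hn (by
    rw [← Subgroup.mem_bot, ← hreg]; exact h)
  have heq : ∀ n m : N, n ≠ 1 → m ≠ 1 → orderOf n = orderOf m := by
    intro n m hn hm
    obtain ⟨g, hg1, hg2⟩ := hG (hne hn).symm (hne hm).symm
    have h : (⟨g * n * g⁻¹, ‹N.Normal›.conj_mem _ n.2 g⟩ : N) = m := by
      have : m⁻¹ * ⟨g * n * g⁻¹, ‹N.Normal›.conj_mem _ n.2 g⟩ ∈ stabilizer N a := by
        rw [mem_stabilizer_iff, mul_smul, inv_smul_eq_iff]
        show (g * n * g⁻¹) • a = m • a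
        rw [mul_smul, mul_smul, inv_smul_eq_iff.mpr hg1.symm]
        exact hg2
      rw [hreg, Subgroup.mem_bot] at this
      exact (inv_mul_eq_one.mp this).symm
    rw [← h, ← Subgroup.orderOf_coe n, ← Subgroup.orderOf_coe (⟨g * n * g⁻¹, _⟩ : N)]
    exact (orderOf_injective (MulAut.conj g).toMonoidHom (MulAut.conj g).injective (n : G)).symm
  obtain ⟨p, hp, hP⟩ := isPGroup_of_equal_orders heq
  haveI := Fact.mk hp
  have hZ : (Subgroup.center N).map N.subtype = N := by
    refine (hmin _ inferInstance (Subgroup.map_subtype_le _)).resolve_left fun hb => ?_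
    exact (Subgroup.nontrivial_iff_ne_bot _).mp hP.center_nontrivial
      ((Subgroup.map_eq_bot_iff_of_injective _ N.subtype_injective).mp hb)
  apply hnab
  have htop : Subgroup.center N = ⊤ := Subgroup.map_injective N.subtype_injective
    (hZ.trans (by rw [← MonoidHom.range_eq_map, Subgroup.range_subtype]))
  exact ⟨⟨fun x y => (Subgroup.mem_center_iff.mp (htop ▸ Subgroup.mem_top y) x)⟩⟩

theorem isPreprimitive_minimal [Finite G] (h2 : IsMultiplyPretransitive G α 2) (N : Subgroup G) [N.Normal]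
    [IsPretransitive N α]
    (hmin : ∀ M : Subgroup G, M.Normal → M ≤ N → M = ⊥ ∨ M = N) (hN : N ≠ ⊥)
    (hnab : ¬ IsMulCommutative N) : IsPreprimitive N α := by
  classical
  have hG : ∀ {a b c d : α}, a ≠ b → c ≠ d → ∃ g : G, g • a = c ∧ g • b = d :=
    is_two_pretransitive_iff.mp h2
  by_contra hnot
  obtain ⟨B, hB, hBn⟩ : ∃ B : Set α, IsBlock N B ∧ ¬ IsTrivialBlock B := by
    by_contra h
    push Not at h
    exact hnot ⟨fun {B} hB => h B hB⟩
  let P : ℕ → Prop := fun c => ∃ B : Set α, IsBlock N B ∧ 1 < B.ncard ∧ B ≠ Set.univ ∧ B.ncard = c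
  have hex : ∃ c, P c := by
    simp only [IsTrivialBlock, not_or] at hBn
    exact ⟨_, B, hB, by rw [Set.one_lt_ncard_iff_nontrivial]; exact Set.not_subsingleton_iff.mp hBn.1, hBn.2, rfl⟩
  obtain ⟨B₀, hB₀, hB₀1, hB₀u, hB₀c⟩ := Nat.find_spec hex
  have hB₀lt : B₀.ncard < Nat.card α := Set.ncard_lt_card hB₀u
  -- translates of a minimal block are blocks
  have hline : ∀ g : G, IsBlock N (g • B₀) := by
    intro g
    rw [isBlock_iff_smul_eq_of_mem]
    intro n x hx hnx
    rw [Set.mem_smul_set_iff_inv_smul_mem] at hx hnx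
    let n' : N := ⟨g⁻¹ * n * g, by simpa using ‹N.Normal›.conj_mem _ n.2 g⁻¹⟩
    have h1 : n' • (g⁻¹ • x) = g⁻¹ • n • x := by
      show (g⁻¹ * (n : G) * g) • g⁻¹ • x = g⁻¹ • (n : G) • x
      rw [mul_smul, smul_inv_smul, mul_smul]
    have h2' := isBlock_iff_smul_eq_of_mem.mp hB₀ (g := n') hx (h1 ▸ hnx)
    have h3 : (g⁻¹ * (n : G) * g) • B₀ = B₀ := h2'
    show (n : G) • g • B₀ = g • B₀
    conv_rhs => rw [← h3]
    rw [← mul_smul, ← mul_smul]
    congr 1
    group
  have huniq : ∀ g h : G, ∀ x y : α, x ≠ y → x ∈ g • B₀ → y ∈ g • B₀ → x ∈ h • B₀ → y ∈ h • B₀ →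
      g • B₀ = h • B₀ := by
    intro g h x y hxy h1 h2' h3 h4
    have hI := (hline g).inter (hline h)
    have h5 : 1 < (g • B₀ ∩ h • B₀).ncard :=
      (Set.one_lt_ncard_iff (Set.toFinite _)).mpr ⟨x, y, ⟨h1, h3⟩, ⟨h2', h4⟩, hxy⟩
    have h6 : (g • B₀ ∩ h • B₀).ncard ≤ (g • B₀).ncard := Set.ncard_le_ncard Set.inter_subset_left
    rw [Set.ncard_smul_set] at h6
    have h7 : (g • B₀ ∩ h • B₀).ncard = B₀.ncard := by
      by_contra hlt
      refine Nat.find_min hex (m := (g • B₀ ∩ h • B₀).ncard) (by omega)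
        ⟨_, hI, h5, fun hu => ?_, rfl⟩
      rw [hu, Set.ncard_univ] at h6
      omega
    have h8 : g • B₀ ∩ h • B₀ = g • B₀ :=
      Set.eq_of_subset_of_ncard_le Set.inter_subset_left (by rw [Set.ncard_smul_set, h7])
    have h9 : g • B₀ ∩ h • B₀ = h • B₀ :=
      Set.eq_of_subset_of_ncard_le Set.inter_subset_right (by rw [Set.ncard_smul_set, h7])
    exact h8.symm.trans h9
  have hthrough : ∀ {x y : α}, x ≠ y → ∃ g : G, x ∈ g • B₀ ∧ y ∈ g • B₀ := by
    intro x y hxy
    obtain ⟨u, v, hu, hv, huv⟩ := (Set.one_lt_ncard_iff (Set.toFinite _)).mp hB₀1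
    obtain ⟨g, hg1, hg2⟩ := hG huv hxy
    exact ⟨g, hg1 ▸ Set.smul_mem_smul_set hu, hg2 ▸ Set.smul_mem_smul_set hv⟩
  have hfixline : ∀ (n : N) (g : G) (x y : α), x ∈ g • B₀ → n • x = x → y ∈ g • B₀ →
      n • y ∈ g • B₀ := by
    intro n g x y hx hnx hy
    have := isBlock_iff_smul_eq_of_mem.mp (hline g) hx (by rw [hnx]; exact hx)
    rw [← this]
    exact Set.smul_mem_smul_set hy
  have hoff : ∀ (n : N) (g : G) (a b c : α), a ≠ b → a ∈ g • B₀ → b ∈ g • B₀ → c ∉ g • B₀ →
      n • a = a → n • b = b → n • c = c := by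
    intro n g a b c hab ha hb hc hna hnb
    have hac : a ≠ c := fun h => hc (h ▸ ha)
    have hbc : b ≠ c := fun h => hc (h ▸ hb)
    obtain ⟨g₁, ha1, hc1⟩ := hthrough hac
    obtain ⟨g₂, hb2, hc2⟩ := hthrough hbc
    by_contra hne
    have h12 := huniq g₁ g₂ (n • c) c hne (hfixline n g₁ a c ha1 hna hc1) hc1
      (hfixline n g₂ b c hb2 hnb hc2) hc2
    exact hc (huniq g₁ g a b hab ha1 (h12 ▸ hb2) ha hb ▸ hc1)
  have hfix : ∀ (n : N) (a b : α), a ≠ b → n • a = a → n • b = b → n = 1 := by
    intro n a b hab hna hnb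
    obtain ⟨g, ha, hb⟩ := hthrough hab
    obtain ⟨c, hc⟩ : ∃ c, c ∉ g • B₀ := by
      rw [← Set.ne_univ_iff_exists_notMem]
      intro hu
      have := Set.ncard_smul_set g B₀
      rw [hu, Set.ncard_univ] at this
      omega
    have hnc := hoff n g a b c hab ha hb hc hna hnb
    refine Subtype.ext (FaithfulSMul.eq_of_smul_eq_smul (α := α) fun d => ?_)
    show n • d = _
    rw [Subgroup.coe_one, one_smul]
    by_cases hd : d ∈ g • B₀
    · by_cases hda : d = a
      · rw [hda, hna]
      have hac : a ≠ c := fun h => hc (h ▸ ha)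
      obtain ⟨g₁, ha1, hc1⟩ := hthrough hac
      refine hoff n g₁ a c d hac ha1 hc1 (fun hd1 => hc ?_) hna hnc
      exact huniq g₁ g a d (Ne.symm hda) ha1 hd1 ha hd ▸ hc1
    · exact hoff n g a b d hab ha hb hd hna hnb
  obtain ⟨u, v, -, -, huv⟩ := (Set.one_lt_ncard_iff (Set.toFinite _)).mp hB₀1
  have hF : Cfsg.IsFrobeniusComplement (stabilizer N u) := by
    refine ⟨not_semiregular h2 N hmin hN hnab u, ?_, ?_⟩
    · intro htop
      obtain ⟨n, hn⟩ := exists_smul_eq N u v
      exact huv ((htop ▸ Subgroup.mem_top n : n ∈ stabilizer N u).symm.trans hn)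
    · intro g hg
      rw [Subgroup.eq_bot_iff_forall]
      intro n hn
      obtain ⟨hn1, hn2⟩ := hn
      have hn2' : (g⁻¹ * n * g) • u = u :=
        (CfsgLib.Frob.mem_smul_iff g n (stabilizer N u)).mp hn2
      rw [mul_smul, mul_smul, inv_smul_eq_iff] at hn2'
      exact hfix n u (g • u) (fun h => hg h.symm) hn1 hn2'
  haveI := CfsgLib.Frob.kernel_characteristic hF
  rcases hmin ((CfsgLib.Frob.kernel hF).map N.subtype) inferInstance (Subgroup.map_subtype_le _) with h | h
  · exact CfsgLib.Frob.kernel_ne_bot hF ((Subgroup.map_eq_bot_iff_of_injective _ N.subtype_injective).mp h)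
  · exact CfsgLib.Frob.kernel_ne_top hF (Subgroup.map_injective N.subtype_injective
      (h.trans (by rw [← MonoidHom.range_eq_map, Subgroup.range_subtype])))

theorem burnside [Finite G] [Nontrivial α] (h2 : IsMultiplyPretransitive G α 2) (N : Subgroup G) [N.Normal]
    (hN : N ≠ ⊥) (hmin : ∀ M : Subgroup G, M.Normal → M ≤ N → M = ⊥ ∨ M = N) :
    (IsMulCommutative N ∧ (∃ p : ℕ, p.Prime ∧ ∀ n ∈ N, n ^ p = 1) ∧ ∀ a : α, stabilizer N a = ⊥) ∨
      (IsSimpleGroup N ∧ IsPreprimitive N α) := by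
  classical
  haveI := isPreprimitive_of_is_two_pretransitive h2
  haveI : Nontrivial N := (Subgroup.nontrivial_iff_ne_bot _).mpr hN
  haveI hNt : IsPretransitive N α := by
    apply IsQuasiPreprimitive.isPretransitive_of_normal (G := G)
    intro hfix
    refine hN ((Subgroup.eq_bot_iff_forall N).mpr fun n hn => ?_)
    refine FaithfulSMul.eq_of_smul_eq_smul (α := α) fun a => ?_
    rw [one_smul]
    exact (Set.eq_univ_iff_forall.mp hfix a) ⟨n, hn⟩
  by_cases hab : IsMulCommutative N
  · left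
    have hcomm : ∀ x ∈ N, ∀ y ∈ N, Commute x y := fun x hx y hy => by
      haveI := hab
      exact congrArg Subtype.val (mul_comm' (⟨x, hx⟩ : N) ⟨y, hy⟩)
    refine ⟨hab, ?_, fun a => ?_⟩
    · have hp : (Nat.card N).minFac.Prime := Nat.minFac_prime Finite.one_lt_card.ne'
      haveI := Fact.mk hp
      obtain ⟨x, hx⟩ := exists_prime_orderOf_dvd_card' _ (Nat.minFac_dvd (Nat.card N))
      refine ⟨_, hp, fun n hn => ?_⟩
      let S : Subgroup G :=
        { carrier := {y | y ∈ N ∧ y ^ (Nat.card N).minFac = 1}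
          mul_mem' := fun {u v} hu hv => ⟨N.mul_mem hu.1 hv.1, by
            rw [(hcomm u hu.1 v hv.1).mul_pow, hu.2, hv.2, one_mul]⟩
          one_mem' := ⟨N.one_mem, one_pow _⟩
          inv_mem' := fun {u} hu => ⟨N.inv_mem hu.1, by rw [inv_pow, hu.2, inv_one]⟩ }
      have hS : S = N := by
        refine (hmin S ⟨fun y hy g => ⟨‹N.Normal›.conj_mem y hy.1 g, ?_⟩⟩ fun y hy => hy.1).resolve_left
          fun hb => ?_
        · rw [conj_pow, hy.2, mul_one, mul_inv_cancel]
        · have hxS : (x : G) ∈ S := ⟨x.2, by rw [← hx, ← Subgroup.orderOf_coe, pow_orderOf_eq_one]⟩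
          rw [hb, Subgroup.mem_bot] at hxS
          exact hp.ne_one (by rw [← hx, ← Subgroup.orderOf_coe, hxS, orderOf_one])
      exact (hS.symm ▸ hn : n ∈ S).2
    · rw [Subgroup.eq_bot_iff_forall]
      intro n hn
      refine Subtype.ext (eq_of_fix_commute (N := N) (a := a) (fun m hm => hcomm _ n.2 m hm)
        (fun m _ => Commute.one_left m) ?_)
      rw [Subgroup.coe_one, one_smul]
      exact hn
  · right
    haveI hprim := isPreprimitive_minimal h2 N hmin hN hab
    refine ⟨?_, hprim⟩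
    obtain ⟨m, K, hm, hKN, hKn, hsimple, hconj, hcommK, hind, hsup⟩ := exists_factors N hN hmin
    let i : Fin m := ⟨0, hm⟩
    have hKne : ∀ j, K j ≠ ⊥ := fun j =>
      (Subgroup.nontrivial_iff_ne_bot _).mp (hsimple j).toNontrivial
    by_cases honly : ∀ j, j = i
    · have hKi : K i = N := by
        rw [← hsup]
        exact le_antisymm (le_iSup K i) (iSup_le fun j => by rw [honly j])
      exact hKi ▸ hsimple i
    · exfalso
      push Not at honly
      obtain ⟨j, hji⟩ := honly
      haveI hti := isPretransitive_normalised (α := α) (hKN i) (hKn i) (hKne i)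
      haveI htj := isPretransitive_normalised (α := α) (hKN j) (hKn j) (hKne j)
      obtain ⟨a⟩ : Nonempty α := inferInstance
      have hsemi : ∀ x ∈ K i, x • a = a → x = 1 := fun x hx h =>
        eq_of_fix_commute (N := K j) (a := a) (fun y hy => hcommK hji.symm x y hx hy)
          (fun y _ => Commute.one_left y) (by rw [one_smul]; exact h)
      have hne : ∀ x ∈ K i, x ≠ 1 → x • a ≠ a := fun x hx h1 h => h1 (hsemi x hx h)
      have hG : ∀ {a b c d : α}, a ≠ b → c ≠ d → ∃ g : G, g • a = c ∧ g • b = d :=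
        is_two_pretransitive_iff.mp h2
      have horder : ∀ t s : K i, t ≠ 1 → s ≠ 1 → orderOf t = orderOf s := by
        rintro ⟨t, ht⟩ ⟨s, hs⟩ ht1 hs1
        have ht1' : t ≠ 1 := fun h => ht1 (Subtype.ext h)
        have hs1' : s ≠ 1 := fun h => hs1 (Subtype.ext h)
        obtain ⟨g, hg1, hg2⟩ := hG (hne t ht ht1').symm (hne s hs hs1').symm
        set t' := g * t * g⁻¹ with ht'
        have hts : t' • a = s • a := by
          rw [ht', mul_smul, mul_smul, inv_smul_eq_iff.mpr hg1.symm, hg2]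
        have ho : orderOf t' = orderOf t :=
          orderOf_injective (MulAut.conj g).toMonoidHom (MulAut.conj g).injective t
        rw [Subgroup.orderOf_mk, Subgroup.orderOf_mk, ← ho]
        set L := (K i).map (MulAut.conj g).toMonoidHom with hL
        have hLN : L ≤ N := by
          rintro _ ⟨k, hk, rfl⟩
          exact ‹N.Normal›.conj_mem k (hKN i hk) g
        have hLn : N ≤ Subgroup.normalizer (L : Set G) := le_normalizer_of_conj fun n hn k hk => by
          obtain ⟨k', hk', rfl⟩ := hk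
          refine ⟨(g⁻¹ * n * g) * k' * (g⁻¹ * n * g)⁻¹, ?_, by simp [mul_assoc]⟩
          exact (Subgroup.mem_normalizer_iff.mp
            (hKn i (by simpa using ‹N.Normal›.conj_mem n hn g⁻¹)) k').mp hk'
        have htL : t' ∈ L := ⟨t, ht, rfl⟩
        by_cases hd : L ⊓ K i = ⊥
        · have hc : ∀ k ∈ L, ∀ y ∈ K i, Commute k y := fun k hk y hy =>
            commute_of_disjoint ((hKN i).trans hLn) (hLN.trans (hKn i)) hd hk hy
          have hsemiL : ∀ x ∈ L, x • a = a → x = 1 := fun x hx h =>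
            eq_of_fix_commute (N := K i) (a := a) (fun y hy => hc x hx y hy)
              (fun y _ => Commute.one_left y) (by rw [one_smul]; exact h)
          have hpow : ∀ k : ℕ, t' ^ k • a = s ^ k • a := by
            intro k
            induction k with
            | zero => simp
            | succ k ih =>
              rw [pow_succ t', mul_smul, hts, ← mul_smul, (hc _ (L.pow_mem htL k) s hs).eq, mul_smul,
                ih, ← mul_smul, ← pow_succ' s]
          refine orderOf_eq_orderOf_iff.mpr fun k => ⟨fun h => ?_, fun h => ?_⟩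
          · exact hsemi _ ((K i).pow_mem hs k) (by rw [← hpow, h, one_smul])
          · exact hsemiL _ (L.pow_mem htL k) (by rw [hpow, h, one_smul])
        · have hle : K i ≤ L := by
            have hn' : ((L ⊓ K i).subgroupOf (K i)).Normal := ⟨fun k hk y =>
              ⟨(Subgroup.mem_normalizer_iff.mp (hLn (hKN i y.2)) (k : G)).mp hk.1,
                (y * k * y⁻¹ : K i).2⟩⟩
            haveI := hsimple i
            rcases IsSimpleGroup.eq_bot_or_eq_top_of_normal _ hn' with hb | ht
            · rw [Subgroup.subgroupOf_eq_bot] at hb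
              exact absurd (le_bot_iff.mp (hb.le_bot.trans' (le_inf le_rfl inf_le_right))) hd
            · exact (Subgroup.subgroupOf_eq_top.mp ht).trans inf_le_left
          have hcard : Nat.card L = Nat.card (K i) :=
            (Nat.card_congr ((K i).equivMapOfInjective _ (MulAut.conj g).injective).toEquiv).symm
          have hLi : K i = L := Subgroup.eq_of_le_of_card_ge hle hcard.le
          have : s⁻¹ * t' = 1 := hsemi _ ((K i).mul_mem ((K i).inv_mem hs) (hLi ▸ htL))
            (by rw [mul_smul, hts, inv_smul_smul])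
          rw [inv_mul_eq_one.mp this]
      haveI := hsimple i
      obtain ⟨p, hp, hP⟩ := isPGroup_of_equal_orders horder
      haveI := Fact.mk hp
      have hcenter : Subgroup.center (K i) = ⊤ :=
        (IsSimpleGroup.eq_bot_or_eq_top_of_normal _ inferInstance).resolve_left
          ((Subgroup.nontrivial_iff_ne_bot _).mp hP.center_nontrivial)
      have hKcomm : ∀ l, ∀ x ∈ K l, ∀ y ∈ K l, Commute x y := by
        intro l x hx y hy
        obtain ⟨h, hh⟩ := hconj i l
        rw [← hh] at hx hy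
        obtain ⟨x', hx', rfl⟩ := hx
        obtain ⟨y', hy', rfl⟩ := hy
        have := Subgroup.mem_center_iff.mp (hcenter ▸ Subgroup.mem_top (⟨y', hy'⟩ : K i)) ⟨x', hx'⟩
        exact (show Commute x' y' from congrArg Subtype.val this).map (MulAut.conj h).toMonoidHom
      apply hab
      have hle : N ≤ Subgroup.centralizer (N : Set G) := by
        conv_lhs => rw [← hsup]
        refine iSup_le fun l => ?_
        rw [Subgroup.le_centralizer_iff]
        conv_lhs => rw [← hsup]
        refine iSup_le fun l' y hy x hx => ?_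
        by_cases hll : l = l'
        · subst hll; exact hKcomm l x hx y hy
        · exact hcommK hll x y hx hy
      exact ⟨⟨fun x y => Subtype.ext (Subgroup.mem_centralizer_iff.mp (hle y.2) x x.2)⟩⟩

end CfsgLib.MinNormal
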